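import Mathlib
import Cfsg.Agent.H37.Involve

set_option autoImplicit false

namespace Cfsg.Agent.Lib.Helper37.PermPComm

open Cfsg.Agent.H37

/-- Every `p`-subgroup of a symmetric group of degree less than `p²` is commutative. -/
theorem perm_pSubComm {p : ℕ} [Fact p.Prime] {α : Type*} [Fintype α] [DecidableEq α]
    (hn : Fintype.card α < p ^ 2) : PSubComm p (Equiv.Perm α) := by
  classical
  intro Q hQ x hx y hy
  have hp : p.Prime := Fact.out
  ext i
  show x (y i) = y (x i)
  obtain ⟨k, hk⟩ := hQ.index (MulAction.stabilizer Q i)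
  rw [MulAction.index_stabilizer] at hk
  have hle : (MulAction.orbit Q i).ncard ≤ Fintype.card α := by
    rw [← Nat.card_eq_fintype_card, ← Set.ncard_univ]
    exact Set.ncard_le_ncard (Set.subset_univ _)
  have hk1 : k ≤ 1 := by
    by_contra hcon
    have : p ^ 2 ≤ p ^ k := Nat.pow_le_pow_right hp.pos (by omega)
    omega
  let φ : Q →* Equiv.Perm (MulAction.orbit Q i) := MulAction.toPermHom Q (MulAction.orbit Q i)
  have hR : IsPGroup p φ.range := hQ.of_surjective φ.rangeRestrict φ.rangeRestrict_surjective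
  obtain ⟨j, hj⟩ := (IsPGroup.iff_card).mp hR
  have hcardO : Nat.card (MulAction.orbit Q i) = p ^ k := by
    rw [Nat.card_coe_set_eq, hk]
  have hdvd : p ^ j ∣ (p ^ k).factorial := by
    have h1 := Subgroup.card_subgroup_dvd_card φ.range
    rwa [Nat.card_perm, hcardO, hj] at h1
  have hj1 : j ≤ 1 := by
    by_contra hcon
    have h2 : p ^ 2 ∣ (p ^ k).factorial := (pow_dvd_pow p (by omega)).trans hdvd
    interval_cases k
    · simp only [pow_zero, Nat.factorial_one, Nat.dvd_one] at h2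
      have := hp.one_lt
      nlinarith
    · rw [pow_one] at h2
      obtain ⟨m, hm⟩ : ∃ m, p = m + 1 := ⟨p - 1, by have := hp.pos; omega⟩
      rw [hm, Nat.factorial_succ, ← hm, pow_two] at h2
      have h3 : p ∣ m.factorial := Nat.dvd_of_mul_dvd_mul_left hp.pos h2
      have h4 := (Nat.Prime.dvd_factorial hp).mp h3
      omega
  have hcyc : IsCyclic φ.range := by
    apply isCyclic_of_card_dvd_prime (p := p)
    rw [hj]
    interval_cases j
    · simp
    · simp
  have hcomm : ∀ a b : φ.range, a * b = b * a := by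
    intro a b
    let _ : CommGroup φ.range := IsCyclic.commGroup
    exact mul_comm a b
  have h5 := hcomm ⟨φ ⟨x, hx⟩, ⟨_, rfl⟩⟩ ⟨φ ⟨y, hy⟩, ⟨_, rfl⟩⟩
  have h6 : φ ⟨x, hx⟩ * φ ⟨y, hy⟩ = φ ⟨y, hy⟩ * φ ⟨x, hx⟩ := congrArg Subtype.val h5
  have h7 := congrArg (fun e : Equiv.Perm (MulAction.orbit Q i) =>
    ((e ⟨i, MulAction.mem_orbit_self i⟩ : MulAction.orbit Q i) : α)) h6
  exact h7

end Cfsg.Agent.Lib.Helper37.PermPComm
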