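import Mathlib
import Cfsg.Prelude.Def_PLocal
import Cfsg.Agent.H37.QdBasic

set_option autoImplicit false

namespace Cfsg.Agent.Lib.Helper37.QdBlock

open Matrix

/-- Every element of `Qd(p)` has last row `(0, 0, 1)`. -/
theorem qd_last_row (p : ℕ) {M : Matrix.SpecialLinearGroup (Fin 3) (ZMod p)}
    (hM : M ∈ Cfsg.qd p) :
    (M : Matrix (Fin 3) (Fin 3) (ZMod p)) 2 0 = 0 ∧
    (M : Matrix (Fin 3) (Fin 3) (ZMod p)) 2 1 = 0 ∧
    (M : Matrix (Fin 3) (Fin 3) (ZMod p)) 2 2 = 1 := by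
  unfold Cfsg.qd at hM
  induction hM using Subgroup.closure_induction with
  | mem x hx => exact hx
  | one =>
    rw [Matrix.SpecialLinearGroup.coe_one]
    simp
  | mul x y _ _ hx hy =>
    obtain ⟨a1, a2, a3⟩ := hx
    obtain ⟨b1, b2, b3⟩ := hy
    rw [Matrix.SpecialLinearGroup.coe_mul]
    simp [Matrix.mul_apply, Fin.sum_univ_three, a1, a2, a3, b1, b2, b3]
  | inv x _ hx =>
    obtain ⟨a1, a2, a3⟩ := hx
    have h := congrArg (fun z : Matrix.SpecialLinearGroup (Fin 3) (ZMod p) =>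
      (z : Matrix (Fin 3) (Fin 3) (ZMod p))) (mul_inv_cancel x)
    simp only [Matrix.SpecialLinearGroup.coe_mul, Matrix.SpecialLinearGroup.coe_one] at h
    have h0 := congrFun (congrFun h 2) 0
    have h1 := congrFun (congrFun h 2) 1
    have h2 := congrFun (congrFun h 2) 2
    simp only [Matrix.mul_apply, Fin.sum_univ_three, a1, a2, a3, zero_mul, zero_add, one_mul]
      at h0 h1 h2
    refine ⟨?_, ?_, ?_⟩
    · simpa using h0
    · simpa using h1
    · simpa using h2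

/-- The upper left `2 × 2` block, a monoid homomorphism on `Qd(p)`. -/
def blk (p : ℕ) : Cfsg.qd p →* Matrix (Fin 2) (Fin 2) (ZMod p) where
  toFun M := !![(M.1 : Matrix (Fin 3) (Fin 3) (ZMod p)) 0 0,
    (M.1 : Matrix (Fin 3) (Fin 3) (ZMod p)) 0 1;
    (M.1 : Matrix (Fin 3) (Fin 3) (ZMod p)) 1 0,
    (M.1 : Matrix (Fin 3) (Fin 3) (ZMod p)) 1 1]
  map_one' := by
    ext i j
    fin_cases i <;> fin_cases j <;> simp
  map_mul' := by
    intro A B
    obtain ⟨b1, b2, b3⟩ := qd_last_row p B.2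
    ext i j
    fin_cases i <;> fin_cases j <;>
      simp [Matrix.mul_apply, Fin.sum_univ_three, Fin.sum_univ_two, b1, b2]

/-- lower unitriangular generator -/
def zY (p : ℕ) : Matrix.SpecialLinearGroup (Fin 3) (ZMod p) :=
  ⟨!![1, 0, 0; 1, 1, 0; 0, 0, 1], by simp [Matrix.det_fin_three]⟩

/-- a translation -/
def zE (p : ℕ) : Matrix.SpecialLinearGroup (Fin 3) (ZMod p) :=
  ⟨!![1, 0, 1; 0, 1, 0; 0, 0, 1], by simp [Matrix.det_fin_three]⟩

theorem zY_mem (p : ℕ) : zY p ∈ Cfsg.qd p := by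
  apply Subgroup.subset_closure
  refine ⟨?_, ?_, ?_⟩ <;> simp [zY]

theorem zE_mem (p : ℕ) : zE p ∈ Cfsg.qd p := by
  apply Subgroup.subset_closure
  refine ⟨?_, ?_, ?_⟩ <;> simp [zE]

theorem zX_mem (p : ℕ) : Cfsg.Agent.H37.heisX p ∈ Cfsg.qd p := by
  apply Subgroup.subset_closure
  refine ⟨?_, ?_, ?_⟩ <;> simp [Cfsg.Agent.H37.heisX]

theorem blk_zX (p : ℕ) : blk p ⟨Cfsg.Agent.H37.heisX p, zX_mem p⟩ = !![1, 1; 0, 1] := by
  ext i j
  fin_cases i <;> fin_cases j <;> simp [blk, Cfsg.Agent.H37.heisX]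

theorem blk_zY (p : ℕ) : blk p ⟨zY p, zY_mem p⟩ = !![1, 0; 1, 1] := by
  ext i j
  fin_cases i <;> fin_cases j <;> simp [blk, zY]

theorem blk_zE (p : ℕ) : blk p ⟨zE p, zE_mem p⟩ = 1 := by
  ext i j
  fin_cases i <;> fin_cases j <;> simp [blk, zE]

theorem zE_order (p : ℕ) [Fact p.Prime] (hp : p ≠ 2) :
    orderOf (⟨zE p, zE_mem p⟩ : Cfsg.qd p) = p := by
  apply orderOf_eq_prime
  · apply Subtype.ext
    have h : zE p ∈ Cfsg.Agent.H37.heisMonoid p := by
      refine ⟨?_, ?_, ?_, ?_, ?_, ?_⟩ <;> simp [zE]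
    simpa using Cfsg.Agent.H37.heis_pow_p hp (zE p) h
  · intro h
    have h1 := congrArg (fun z : Cfsg.qd p => (z.1 : Matrix (Fin 3) (Fin 3) (ZMod p)) 0 2) h
    simp [zE] at h1

/-- No `p`-element of `M₂(ZMod p)` can be the commutator of the two standard transvections. -/
theorem no_p_elt {p : ℕ} [Fact p.Prime] (C : Matrix (Fin 2) (Fin 2) (ZMod p)) (hC : C ^ p = 1)
    (h : C * (!![1, 0; 1, 1] * !![1, 1; 0, 1]) = !![1, 1; 0, 1] * !![1, 0; 1, 1]) : False := by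
  have hnil : IsNilpotent (C - 1) :=
    ⟨p, by rw [sub_pow_char_of_commute _ (Commute.one_right C), hC, one_pow, sub_self]⟩
  have htr0 : Matrix.trace (C - 1) = 0 := (Matrix.isNilpotent_trace_of_isNilpotent hnil).eq_zero
  have e00 := congrFun (congrFun h 0) 0
  have e01 := congrFun (congrFun h 0) 1
  have e10 := congrFun (congrFun h 1) 0
  have e11 := congrFun (congrFun h 1) 1
  simp [Matrix.mul_apply, Fin.sum_univ_two] at e00 e01 e10 e11
  simp [Matrix.trace, Fin.sum_univ_two] at htr0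
  have : (1 : ZMod p) = 0 := by
    linear_combination htr0 - (2 * e00 - e01) - (e11 - e10)
  exact one_ne_zero this

end Cfsg.Agent.Lib.Helper37.QdBlock
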