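import Mathlib
import Cfsg.Prelude.Def_PLocal
import Cfsg.Agent.Lib.Helper37.QdBlock

set_option autoImplicit false

namespace Cfsg.Agent.Lib.Helper37.QdAlt

open Matrix Cfsg.Agent.Lib.Helper37.QdBlock

/-- the affine map of the plane given by the first two rows of a `3 × 3` matrix -/
def affFun (p : ℕ) (M : Matrix (Fin 3) (Fin 3) (ZMod p)) (v : ZMod p × ZMod p) :
    ZMod p × ZMod p :=
  (M 0 0 * v.1 + M 0 1 * v.2 + M 0 2, M 1 0 * v.1 + M 1 1 * v.2 + M 1 2)

/-- the affine action of `Qd(p)` on the plane, as a monoid hom to endofunctions -/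
def affEnd (p : ℕ) : Cfsg.qd p →* Function.End (ZMod p × ZMod p) where
  toFun M := affFun p (M.1 : Matrix (Fin 3) (Fin 3) (ZMod p))
  map_one' := by
    funext v
    show affFun p (1 : Matrix (Fin 3) (Fin 3) (ZMod p)) v = v
    simp [affFun]
  map_mul' := by
    intro A B
    obtain ⟨b1, b2, b3⟩ := qd_last_row p B.2
    funext v
    show affFun p ((A.1 : Matrix (Fin 3) (Fin 3) (ZMod p)) * (B.1 : Matrix (Fin 3) (Fin 3) (ZMod p))) v
      = affFun p (A.1 : Matrix (Fin 3) (Fin 3) (ZMod p))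
        (affFun p (B.1 : Matrix (Fin 3) (Fin 3) (ZMod p)) v)
    simp only [affFun, Matrix.mul_apply, Fin.sum_univ_three, b1, b2, b3]
    refine Prod.ext ?_ ?_
    · simp only
      ring
    · simp only
      ring

/-- the affine action as a hom to permutations -/
def affPerm (p : ℕ) : Cfsg.qd p →* Equiv.Perm (ZMod p × ZMod p) := (affEnd p).toHomPerm

theorem affPerm_apply (p : ℕ) (M : Cfsg.qd p) (v : ZMod p × ZMod p) :
    affPerm p M v =
    ((M.1 : Matrix (Fin 3) (Fin 3) (ZMod p)) 0 0 * v.1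
      + (M.1 : Matrix (Fin 3) (Fin 3) (ZMod p)) 0 1 * v.2
      + (M.1 : Matrix (Fin 3) (Fin 3) (ZMod p)) 0 2,
     (M.1 : Matrix (Fin 3) (Fin 3) (ZMod p)) 1 0 * v.1
      + (M.1 : Matrix (Fin 3) (Fin 3) (ZMod p)) 1 1 * v.2
      + (M.1 : Matrix (Fin 3) (Fin 3) (ZMod p)) 1 2) := rfl

theorem affPerm_injective (p : ℕ) [Fact p.Prime] : Function.Injective (affPerm p) := by
  rw [injective_iff_map_eq_one]
  intro M hM
  obtain ⟨m1, m2, m3⟩ := qd_last_row p M.2
  have h00 := congrArg (fun e : Equiv.Perm (ZMod p × ZMod p) => e (0, 0)) hM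
  have h10 := congrArg (fun e : Equiv.Perm (ZMod p × ZMod p) => e (1, 0)) hM
  have h01 := congrArg (fun e : Equiv.Perm (ZMod p × ZMod p) => e (0, 1)) hM
  simp only [affPerm_apply, Equiv.Perm.coe_one, id_eq, Prod.mk.injEq, mul_zero, mul_one,
    add_zero, zero_add] at h00 h10 h01
  obtain ⟨a02, a12⟩ := h00
  rw [a02, a12, add_zero, add_zero] at h10 h01
  obtain ⟨a00, a10⟩ := h10
  obtain ⟨a01, a11⟩ := h01
  apply Subtype.ext
  apply Subtype.ext
  ext i j
  fin_cases i <;> fin_cases j <;> simp [a00, a01, a02, a10, a11, a12, m1, m2, m3]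

/-- A matrix `M` with `(M - 1)² = 0` in characteristic `p` has `M ^ p = 1`. -/
theorem pow_p_of_sq_zero {p : ℕ} [Fact p.Prime] (M : Matrix (Fin 3) (Fin 3) (ZMod p))
    (h : (M - 1) * (M - 1) = 0) : M ^ p = 1 := by
  have hp : 2 ≤ p := (Fact.out : p.Prime).two_le
  have hNp : (M - 1) ^ p = 0 := by
    have h3 : (M - 1) ^ p = (M - 1) ^ 2 * (M - 1) ^ (p - 2) := by
      rw [← pow_add]
      congr 1
      omega
    rw [h3, pow_two, h, zero_mul]
  have hg1 : M = (M - 1) + 1 := by simp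
  rw [hg1, add_pow_char_of_commute _ (Commute.one_right (M - 1)), hNp]
  simp

/-- upper transvection -/
def eU (p : ℕ) (t : ZMod p) : Matrix.SpecialLinearGroup (Fin 3) (ZMod p) :=
  ⟨!![1, t, 0; 0, 1, 0; 0, 0, 1], by simp [Matrix.det_fin_three]⟩

/-- lower transvection -/
def eL (p : ℕ) (t : ZMod p) : Matrix.SpecialLinearGroup (Fin 3) (ZMod p) :=
  ⟨!![1, 0, 0; t, 1, 0; 0, 0, 1], by simp [Matrix.det_fin_three]⟩

/-- translation -/
def eT (p : ℕ) (e f : ZMod p) : Matrix.SpecialLinearGroup (Fin 3) (ZMod p) :=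
  ⟨!![1, 0, e; 0, 1, f; 0, 0, 1], by simp [Matrix.det_fin_three]⟩

theorem eU_mem (p : ℕ) (t : ZMod p) : eU p t ∈ Cfsg.qd p := by
  apply Subgroup.subset_closure
  refine ⟨?_, ?_, ?_⟩ <;> simp [eU]

theorem eL_mem (p : ℕ) (t : ZMod p) : eL p t ∈ Cfsg.qd p := by
  apply Subgroup.subset_closure
  refine ⟨?_, ?_, ?_⟩ <;> simp [eL]

theorem eT_mem (p : ℕ) (e f : ZMod p) : eT p e f ∈ Cfsg.qd p := by
  apply Subgroup.subset_closure
  refine ⟨?_, ?_, ?_⟩ <;> simp [eT]

theorem eU_pow (p : ℕ) [Fact p.Prime] (t : ZMod p) : eU p t ^ p = 1 := by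
  apply Subtype.ext
  rw [Matrix.SpecialLinearGroup.coe_pow]
  apply pow_p_of_sq_zero
  ext i j
  fin_cases i <;> fin_cases j <;> simp [eU, Matrix.mul_apply, Fin.sum_univ_three]

theorem eL_pow (p : ℕ) [Fact p.Prime] (t : ZMod p) : eL p t ^ p = 1 := by
  apply Subtype.ext
  rw [Matrix.SpecialLinearGroup.coe_pow]
  apply pow_p_of_sq_zero
  ext i j
  fin_cases i <;> fin_cases j <;> simp [eL, Matrix.mul_apply, Fin.sum_univ_three]

theorem eT_pow (p : ℕ) [Fact p.Prime] (e f : ZMod p) : eT p e f ^ p = 1 := by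
  apply Subtype.ext
  rw [Matrix.SpecialLinearGroup.coe_pow]
  apply pow_p_of_sq_zero
  ext i j
  fin_cases i <;> fin_cases j <;> simp [eT, Matrix.mul_apply, Fin.sum_univ_three]

/-- A homomorphism to `ℤˣ` kills elements of odd prime-power order `p`. -/
theorem hom_eq_one_of_pow {p : ℕ} [Fact p.Prime] (hp : p ≠ 2) {G : Type*} [Group G]
    (φ : G →* ℤˣ) (g : G) (hg : g ^ p = 1) : φ g = 1 := by
  have h1 : φ g ^ p = 1 := by rw [← map_pow, hg, map_one]
  rcases Int.units_eq_one_or (φ g) with h | h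
  · exact h
  · rw [h] at h1
    have hodd : Odd p := (Fact.out : p.Prime).odd_of_ne_two hp
    rw [hodd.neg_one_pow] at h1
    exact absurd h1 (by decide)

/-- Any homomorphism from `Qd(p)` to `ℤˣ` is trivial (`p` odd). -/
theorem hom_trivial {p : ℕ} [Fact p.Prime] (hp : p ≠ 2) (φ : Cfsg.qd p →* ℤˣ) (g : Cfsg.qd p) :
    φ g = 1 := by
  have hU : ∀ t, φ ⟨eU p t, eU_mem p t⟩ = 1 := fun t =>
    hom_eq_one_of_pow hp φ _ (Subtype.ext (eU_pow p t))
  have hL : ∀ t, φ ⟨eL p t, eL_mem p t⟩ = 1 := fun t =>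
    hom_eq_one_of_pow hp φ _ (Subtype.ext (eL_pow p t))
  have hT : ∀ e f, φ ⟨eT p e f, eT_mem p e f⟩ = 1 := fun e f =>
    hom_eq_one_of_pow hp φ _ (Subtype.ext (eT_pow p e f))
  -- elements with nonzero lower-left entry
  have key : ∀ M : Cfsg.qd p, (M.1 : Matrix (Fin 3) (Fin 3) (ZMod p)) 1 0 ≠ 0 → φ M = 1 := by
    intro M hc
    obtain ⟨m1, m2, m3⟩ := qd_last_row p M.2
    have hdet := M.1.det_coe
    rw [Matrix.det_fin_three, m1, m2, m3] at hdet
    set a := (M.1 : Matrix (Fin 3) (Fin 3) (ZMod p)) 0 0 with ha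
    set b := (M.1 : Matrix (Fin 3) (Fin 3) (ZMod p)) 0 1 with hb
    set e := (M.1 : Matrix (Fin 3) (Fin 3) (ZMod p)) 0 2 with he
    set c := (M.1 : Matrix (Fin 3) (Fin 3) (ZMod p)) 1 0 with hc'
    set d := (M.1 : Matrix (Fin 3) (Fin 3) (ZMod p)) 1 1 with hd
    set f := (M.1 : Matrix (Fin 3) (Fin 3) (ZMod p)) 1 2 with hf
    have hfact : M = ⟨eT p e f, eT_mem p e f⟩ * ⟨eU p ((a - 1) / c), eU_mem p _⟩ *
        ⟨eL p c, eL_mem p c⟩ * ⟨eU p ((d - 1) / c), eU_mem p _⟩ := by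
      apply Subtype.ext
      apply Subtype.ext
      simp only [Subgroup.coe_mul, Matrix.SpecialLinearGroup.coe_mul]
      ext i j
      fin_cases i <;> fin_cases j
      · simp [eT, eU, eL, Matrix.mul_apply, Fin.sum_univ_three, ← ha]
        field_simp
        ring
      · simp [eT, eU, eL, Matrix.mul_apply, Fin.sum_univ_three, ← hb]
        field_simp
        linear_combination (-1 : ZMod p) * hdet
      · simp [eT, eU, eL, Matrix.mul_apply, Fin.sum_univ_three, ← he]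
      · simp [eT, eU, eL, Matrix.mul_apply, Fin.sum_univ_three, ← hc']
      · simp [eT, eU, eL, Matrix.mul_apply, Fin.sum_univ_three, ← hd]
        field_simp
        ring
      · simp [eT, eU, eL, Matrix.mul_apply, Fin.sum_univ_three, ← hf]
      · simp [eT, eU, eL, Matrix.mul_apply, Fin.sum_univ_three, m1]
      · simp [eT, eU, eL, Matrix.mul_apply, Fin.sum_univ_three, m2]
      · simp [eT, eU, eL, Matrix.mul_apply, Fin.sum_univ_three, m3]
    rw [hfact, map_mul, map_mul, map_mul, hT, hU, hL, hU]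
    simp
  by_cases hc : (g.1 : Matrix (Fin 3) (Fin 3) (ZMod p)) 1 0 = 0
  · obtain ⟨m1, m2, m3⟩ := qd_last_row p g.2
    have hdet := g.1.det_coe
    rw [Matrix.det_fin_three, m1, m2, m3, hc] at hdet
    have h1 : φ (⟨eL p 1, eL_mem p 1⟩ * g) = 1 := by
      apply key
      simp only [Subgroup.coe_mul, Matrix.SpecialLinearGroup.coe_mul, Matrix.mul_apply,
        Fin.sum_univ_three]
      simp only [eL, Matrix.of_apply, Matrix.cons_val', Matrix.cons_val_zero, Matrix.cons_val_one,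
        Matrix.cons_val_two, Matrix.empty_val', Matrix.cons_val_fin_one, Matrix.head_cons,
        Matrix.tail_cons]
      intro h0
      rw [hc, m1] at h0
      have ha0 : (g.1 : Matrix (Fin 3) (Fin 3) (ZMod p)) 0 0 = 0 := by
        simpa using h0
      rw [ha0] at hdet
      simp at hdet
    rw [map_mul, hL, one_mul] at h1
    exact h1
  · exact key g hc

end Cfsg.Agent.Lib.Helper37.QdAlt
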