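import Mathlib

set_option autoImplicit false

namespace Cfsg.Agent.Lib.Helper37.UT3

open Matrix

variable {K : Type*} [Field K]

/-- upper triangular `3 × 3` matrices -/
def IsUT (T : Matrix (Fin 3) (Fin 3) K) : Prop := T 1 0 = 0 ∧ T 2 0 = 0 ∧ T 2 1 = 0

theorem IsUT.mul {A B : Matrix (Fin 3) (Fin 3) K} (hA : IsUT A) (hB : IsUT B) :
    IsUT (A * B) := by
  obtain ⟨a1, a2, a3⟩ := hA
  obtain ⟨b1, b2, b3⟩ := hB
  refine ⟨?_, ?_, ?_⟩ <;>
    simp [Matrix.mul_apply, Fin.sum_univ_three, a1, a2, a3, b1, b2, b3]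

theorem IsUT.mul_diag {A B : Matrix (Fin 3) (Fin 3) K} (hA : IsUT A) (hB : IsUT B) (i : Fin 3) :
    (A * B) i i = A i i * B i i := by
  obtain ⟨a1, a2, a3⟩ := hA
  obtain ⟨b1, b2, b3⟩ := hB
  fin_cases i <;>
    simp [Matrix.mul_apply, Fin.sum_univ_three, a1, a2, a3, b1, b2, b3]

/-- An upper unitriangular `3 × 3` matrix in odd characteristic `p` has `p`-th power one. -/
theorem pow_eq_one_of_unitri {p : ℕ} [Fact p.Prime] [CharP K p] (hp : p ≠ 2)
    {C : Matrix (Fin 3) (Fin 3) K} (hC : IsUT C) (hd : ∀ i, C i i = 1) : C ^ p = 1 := by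
  obtain ⟨c1, c2, c3⟩ := hC
  have d0 := hd 0
  have d1 := hd 1
  have d2 := hd 2
  have hp3 : 3 ≤ p := by
    have := (Fact.out : p.Prime).two_le
    omega
  set N : Matrix (Fin 3) (Fin 3) K := C - 1 with hN
  have hN3 : N ^ 3 = 0 := by
    have hNe : N = !![0, C 0 1, C 0 2; 0, 0, C 1 2; 0, 0, 0] := by
      ext i j
      fin_cases i <;> fin_cases j <;> simp [hN, c1, c2, c3, d0, d1, d2]
    rw [hNe]
    ext i j
    fin_cases i <;> fin_cases j <;> simp [pow_succ, Matrix.mul_apply, Fin.sum_univ_three]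
  have hNp : N ^ p = 0 := by
    have h3 : N ^ p = N ^ 3 * N ^ (p - 3) := by
      rw [← pow_add]
      congr 1
      omega
    rw [h3, hN3, zero_mul]
  have hg1 : C = N + 1 := by simp [hN]
  rw [hg1, add_pow_char_of_commute _ (Commute.one_right N), hNp]
  simp

/-- The commutator of two invertible upper triangular matrices has `p`-th power one. -/
theorem comm_pow_eq_one {p : ℕ} [Fact p.Prime] [CharP K p] (hp : p ≠ 2)
    {A B A' B' : Matrix (Fin 3) (Fin 3) K} (hA : IsUT A) (hB : IsUT B) (hA' : IsUT A')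
    (hB' : IsUT B') (hAA : A * A' = 1) (hBB : B * B' = 1) : (A * B * A' * B') ^ p = 1 := by
  have hAd : ∀ i, A i i * A' i i = 1 := fun i => by
    rw [← hA.mul_diag hA', hAA, Matrix.one_apply_eq]
  have hBd : ∀ i, B i i * B' i i = 1 := fun i => by
    rw [← hB.mul_diag hB', hBB, Matrix.one_apply_eq]
  apply pow_eq_one_of_unitri hp (((hA.mul hB).mul hA').mul hB')
  intro i
  rw [((hA.mul hB).mul hA').mul_diag hB', (hA.mul hB).mul_diag hA', hA.mul_diag hB]
  have e : A i i * B i i * A' i i * B' i i = (A i i * A' i i) * (B i i * B' i i) := by ring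
  rw [e, hAd, hBd, one_mul]

end Cfsg.Agent.Lib.Helper37.UT3
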