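import Mathlib
import Cfsg.Prelude.Def_Classical
import Cfsg.Agent.Lib.Helper37.UT3

set_option autoImplicit false

namespace Cfsg.Agent.Lib.Helper37.UnitaryFlag

open Matrix Cfsg.Agent.Lib.Helper37.UT3

variable {K : Type*} [Field K]

theorem coe_mul_eq {x y z : Matrix.SpecialLinearGroup (Fin 3) K} (h : x * y = z) :
    (x : Matrix (Fin 3) (Fin 3) K) * (y : Matrix (Fin 3) (Fin 3) K)
      = (z : Matrix (Fin 3) (Fin 3) K) := by
  rw [← h, Matrix.SpecialLinearGroup.coe_mul]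

/-- entrywise `q`-th power -/
def cj (q : ℕ) (v : Fin 3 → K) : Fin 3 → K := fun i => v i ^ q

theorem herm_eq (q : ℕ) (u v : Fin 3 → K) : Cfsg.hermForm 3 K q u v = u ⬝ᵥ cj q v := rfl

theorem cj_smul (q : ℕ) (c : K) (v : Fin 3 → K) : cj q (c • v) = c ^ q • cj q v := by
  funext i
  simp [cj, mul_pow]

theorem cj_eq_zero {q : ℕ} {v : Fin 3 → K} (h : cj q v = 0) : v = 0 := by
  funext i
  have h1 := congrFun h i
  simp only [cj, Pi.zero_apply] at h1
  exact eq_zero_of_pow_eq_zero h1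

theorem cj_cross {p : ℕ} [Fact p.Prime] [CharP K p] (n : ℕ) (a b : Fin 3 → K) :
    cj (p ^ n) (a ⨯₃ b) = cj (p ^ n) a ⨯₃ cj (p ^ n) b := by
  rw [cross_apply, cross_apply]
  funext i
  fin_cases i <;> simp [cj, sub_pow_char_pow, mul_pow]

theorem parallel_of_cross_eq_zero (a b : Fin 3 → K) (ha : a ≠ 0) (h : a ⨯₃ b = 0) :
    ∃ c : K, b = c • a := by
  have hli : ¬ LinearIndependent K ![a, b] := by
    rw [← crossProduct_ne_zero_iff_linearIndependent]
    simpa using h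
  rw [LinearIndependent.pair_iff' ha] at hli
  push Not at hli
  obtain ⟨c, hc⟩ := hli
  exact ⟨c, hc.symm⟩

/-- A totally isotropic pair of vectors is linearly dependent (dimension three). -/
theorem ti_parallel {p : ℕ} [Fact p.Prime] [CharP K p] (n : ℕ) (a b : Fin 3 → K) (ha : a ≠ 0)
    (haa : a ⬝ᵥ cj (p ^ n) a = 0) (hab : a ⬝ᵥ cj (p ^ n) b = 0)
    (hba : b ⬝ᵥ cj (p ^ n) a = 0) (hbb : b ⬝ᵥ cj (p ^ n) b = 0) : ∃ c : K, b = c • a := by
  by_cases hn : a ⨯₃ b = 0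
  · exact parallel_of_cross_eq_zero a b ha hn
  · exfalso
    have h1 : cj (p ^ n) a ⨯₃ (a ⨯₃ b) = 0 := by
      rw [cross_cross_eq_smul_sub_smul', dotProduct_comm _ b, hba, haa]
      simp
    have h2 : cj (p ^ n) b ⨯₃ (a ⨯₃ b) = 0 := by
      rw [cross_cross_eq_smul_sub_smul', dotProduct_comm _ b, hbb, hab]
      simp
    have h1' : (a ⨯₃ b) ⨯₃ cj (p ^ n) a = 0 := by rw [← cross_anticomm, h1, neg_zero]
    have h2' : (a ⨯₃ b) ⨯₃ cj (p ^ n) b = 0 := by rw [← cross_anticomm, h2, neg_zero]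
    obtain ⟨α, hα⟩ := parallel_of_cross_eq_zero _ _ hn h1'
    obtain ⟨β, hβ⟩ := parallel_of_cross_eq_zero _ _ hn h2'
    have h3 : cj (p ^ n) (a ⨯₃ b) = 0 := by
      rw [cj_cross, hα, hβ]
      simp [cross_self]
    exact hn (cj_eq_zero h3)

/-- the span of all `g v - v` -/
def commSpace (P : Subgroup (Matrix.SpecialLinearGroup (Fin 3) K)) : Submodule K (Fin 3 → K) :=
  Submodule.span K {u | ∃ g ∈ P, ∃ v : Fin 3 → K, u = (g : Matrix (Fin 3) (Fin 3) K) *ᵥ v - v}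

theorem mulVec_mem_commSpace (P : Subgroup (Matrix.SpecialLinearGroup (Fin 3) K))
    {g : Matrix.SpecialLinearGroup (Fin 3) K} (hg : g ∈ P) {u : Fin 3 → K} (hu : u ∈ commSpace P) :
    (g : Matrix (Fin 3) (Fin 3) K) *ᵥ u ∈ commSpace P := by
  have h : (g : Matrix (Fin 3) (Fin 3) K) *ᵥ u = ((g : Matrix (Fin 3) (Fin 3) K) *ᵥ u - u) + u := by
    rw [sub_add_cancel]
  rw [h]
  exact Submodule.add_mem _ (Submodule.subset_span ⟨g, hg, u, rfl⟩) hu

theorem exists_fixed {p : ℕ} [Fact p.Prime] [Fintype K] [CharP K p]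
    (P : Subgroup (Matrix.SpecialLinearGroup (Fin 3) K)) (hP : IsPGroup p P) (hP1 : ∃ g ∈ P, g ≠ 1) :
    ∃ r : Fin 3 → K, r ≠ 0 ∧ r ∈ commSpace P ∧
      ∀ g ∈ P, (g : Matrix (Fin 3) (Fin 3) K) *ᵥ r = r := by
  classical
  let _ : MulAction P (commSpace P) :=
    { smul := fun g u => ⟨(g.1 : Matrix (Fin 3) (Fin 3) K) *ᵥ u.1, mulVec_mem_commSpace P g.2 u.2⟩
      one_smul := fun u => Subtype.ext (by
        show ((1 : P).1 : Matrix (Fin 3) (Fin 3) K) *ᵥ u.1 = u.1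
        simp)
      mul_smul := fun g h u => Subtype.ext (by
        show ((g * h : P).1 : Matrix (Fin 3) (Fin 3) K) *ᵥ u.1 =
          (g.1 : Matrix (Fin 3) (Fin 3) K) *ᵥ ((h.1 : Matrix (Fin 3) (Fin 3) K) *ᵥ u.1)
        simp [Matrix.mulVec_mulVec]) }
  have hsmul : ∀ (g : P) (u : commSpace P),
      (g • u).1 = (g.1 : Matrix (Fin 3) (Fin 3) K) *ᵥ u.1 := fun _ _ => rfl
  obtain ⟨g, hg, hg1⟩ := hP1
  have hex : ∃ v : Fin 3 → K, (g : Matrix (Fin 3) (Fin 3) K) *ᵥ v - v ≠ 0 := by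
    by_contra hcon
    push Not at hcon
    apply hg1
    have hmat : (g : Matrix (Fin 3) (Fin 3) K) = 1 := by
      ext i j
      have h1 := congrFun (hcon (Pi.single j 1)) i
      rw [Matrix.mulVec_single_one] at h1
      simp only [Pi.sub_apply, Pi.zero_apply, Matrix.col_apply] at h1
      rw [Matrix.one_apply, sub_eq_zero.mp h1, Pi.single_apply]
    exact Subtype.ext (hmat.trans Matrix.SpecialLinearGroup.coe_one.symm)
  obtain ⟨v, hv⟩ := hex
  let u0 : commSpace P := ⟨_, Submodule.subset_span ⟨g, hg, v, rfl⟩⟩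
  have hu0 : u0 ≠ 0 := fun h => hv (congrArg Subtype.val h)
  have hp : p ∣ Nat.card (commSpace P) := by
    have h1 : addOrderOf u0 = p := addOrderOf_eq_prime (by
      rw [← Nat.cast_smul_eq_nsmul K, CharP.cast_eq_zero, zero_smul]) hu0
    rw [← h1]
    exact addOrderOf_dvd_natCard u0
  have h0 : (0 : commSpace P) ∈ MulAction.fixedPoints P (commSpace P) := by
    intro g
    apply Subtype.ext
    rw [hsmul]
    simp
  obtain ⟨r, hr, hr0⟩ :=
    hP.exists_fixed_point_of_prime_dvd_card_of_fixed_point (commSpace P) hp h0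
  refine ⟨r.1, fun h => hr0 (Subtype.ext h).symm, r.2, fun g hg => ?_⟩
  have := congrArg Subtype.val (hr ⟨g, hg⟩)
  rw [hsmul] at this
  exact this

theorem mem_su_iff (q : ℕ) (x : Matrix.SpecialLinearGroup (Fin 3) K) :
    x ∈ Cfsg.SU 3 K q ↔ ∀ u v : Fin 3 → K,
      ((x : Matrix (Fin 3) (Fin 3) K) *ᵥ u) ⬝ᵥ cj q ((x : Matrix (Fin 3) (Fin 3) K) *ᵥ v)
        = u ⬝ᵥ cj q v :=
  Iff.rfl

/-- Simultaneous triangularisation of the normaliser of a nontrivial `p`-subgroup of `SU₃`. -/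
theorem exists_triangularize {p : ℕ} [Fact p.Prime] [Fintype K] [CharP K p] (n : ℕ)
    (P : Subgroup (Matrix.SpecialLinearGroup (Fin 3) K)) (hP : IsPGroup p P) (hP1 : ∃ g ∈ P, g ≠ 1)
    (hPSU : P ≤ Cfsg.SU 3 K (p ^ n)) :
    ∃ g g' : Matrix (Fin 3) (Fin 3) K, g' * g = 1 ∧ g * g' = 1 ∧
      ∀ x ∈ Cfsg.SU 3 K (p ^ n), (∀ a ∈ P, x * a * x⁻¹ ∈ P) → (∀ a ∈ P, x⁻¹ * a * x ∈ P) →
        IsUT (g' * (x : Matrix (Fin 3) (Fin 3) K) * g) := by
  classical
  obtain ⟨r, hr0, hrU, hrW⟩ := exists_fixed P hP hP1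
  have iso : ∀ u ∈ commSpace P, ∀ w : Fin 3 → K,
      (∀ a ∈ P, (a : Matrix (Fin 3) (Fin 3) K) *ᵥ w = w) → u ⬝ᵥ cj (p ^ n) w = 0 := by
    intro u hu w hw
    induction hu using Submodule.span_induction with
    | mem u hu =>
      obtain ⟨a, ha, v, rfl⟩ := hu
      have h1 := (mem_su_iff _ a).mp (hPSU ha) v w
      rw [hw a ha] at h1
      rw [sub_dotProduct, h1, sub_self]
    | zero => simp
    | add u v _ _ hu hv => rw [add_dotProduct, hu, hv, add_zero]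
    | smul c u _ hu => rw [smul_dotProduct, hu, smul_zero]
  have inv : ∀ x ∈ Cfsg.SU 3 K (p ^ n), (∀ a ∈ P, x * a * x⁻¹ ∈ P) →
      (∀ a ∈ P, x⁻¹ * a * x ∈ P) → ∃ c : K, (x : Matrix (Fin 3) (Fin 3) K) *ᵥ r = c • r := by
    intro x hx h1 h2
    have hU : ∀ u ∈ commSpace P, (x : Matrix (Fin 3) (Fin 3) K) *ᵥ u ∈ commSpace P := by
      intro u hu
      induction hu using Submodule.span_induction with
      | mem u hu =>
        obtain ⟨a, ha, v, rfl⟩ := hu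
        refine Submodule.subset_span
          ⟨x * a * x⁻¹, h1 a ha, (x : Matrix (Fin 3) (Fin 3) K) *ᵥ v, ?_⟩
        rw [Matrix.mulVec_sub, Matrix.mulVec_mulVec, Matrix.mulVec_mulVec,
          coe_mul_eq (x := x * a * x⁻¹) (y := x) (z := x * a) (by group),
          Matrix.SpecialLinearGroup.coe_mul]
      | zero => simp
      | add u v _ _ hu hv =>
        rw [Matrix.mulVec_add]
        exact Submodule.add_mem _ hu hv
      | smul c u _ hu =>
        rw [Matrix.mulVec_smul]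
        exact Submodule.smul_mem _ c hu
    have hW : ∀ a ∈ P, (a : Matrix (Fin 3) (Fin 3) K) *ᵥ ((x : Matrix (Fin 3) (Fin 3) K) *ᵥ r)
        = (x : Matrix (Fin 3) (Fin 3) K) *ᵥ r := by
      intro a ha
      have h3 := hrW _ (h2 a ha)
      calc (a : Matrix (Fin 3) (Fin 3) K) *ᵥ ((x : Matrix (Fin 3) (Fin 3) K) *ᵥ r)
          = ((a : Matrix (Fin 3) (Fin 3) K) * (x : Matrix (Fin 3) (Fin 3) K)) *ᵥ r :=
            Matrix.mulVec_mulVec _ _ _
        _ = ((x : Matrix (Fin 3) (Fin 3) K) *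
            ((x⁻¹ * a * x : Matrix.SpecialLinearGroup (Fin 3) K) : Matrix (Fin 3) (Fin 3) K)) *ᵥ r := by
            rw [coe_mul_eq (x := x) (y := x⁻¹ * a * x) (z := a * x) (by group),
              Matrix.SpecialLinearGroup.coe_mul]
        _ = (x : Matrix (Fin 3) (Fin 3) K) *ᵥ
            (((x⁻¹ * a * x : Matrix.SpecialLinearGroup (Fin 3) K) : Matrix (Fin 3) (Fin 3) K) *ᵥ r) :=
            (Matrix.mulVec_mulVec _ _ _).symm
        _ = (x : Matrix (Fin 3) (Fin 3) K) *ᵥ r := by rw [h3]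
    exact ti_parallel n r _ hr0 (iso r hrU r hrW) (iso r hrU _ hW) (iso _ (hU r hrU) r hrW)
      (iso _ (hU r hrU) _ hW)
  set f : Fin 3 → K := cj (p ^ n) r with hf
  have hfr : f ⬝ᵥ r = 0 := by
    rw [dotProduct_comm]
    exact iso r hrU r hrW
  have hf0 : f ≠ 0 := fun h => hr0 (cj_eq_zero h)
  have rowinv : ∀ x ∈ Cfsg.SU 3 K (p ^ n), (∀ a ∈ P, x * a * x⁻¹ ∈ P) →
      (∀ a ∈ P, x⁻¹ * a * x ∈ P) → ∃ c : K, f ᵥ* (x : Matrix (Fin 3) (Fin 3) K) = c • f := by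
    intro x hx h1 h2
    obtain ⟨c, hc⟩ := inv x⁻¹ (inv_mem hx) (fun a ha => by simpa using h2 a ha)
      (fun a ha => by simpa using h1 a ha)
    refine ⟨c ^ (p ^ n), ?_⟩
    apply dotProduct_eq
    intro v
    rw [← dotProduct_mulVec, dotProduct_comm]
    have h3 := (mem_su_iff _ x).mp hx v
      (((x⁻¹ : Matrix.SpecialLinearGroup (Fin 3) K) : Matrix (Fin 3) (Fin 3) K) *ᵥ r)
    rw [Matrix.mulVec_mulVec, coe_mul_eq (mul_inv_cancel x),
      Matrix.SpecialLinearGroup.coe_one, Matrix.one_mulVec, hc, cj_smul] at h3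
    rw [h3, dotProduct_smul, smul_dotProduct, dotProduct_comm]
  obtain ⟨t, ht⟩ : ∃ t : Fin 3 → K, f ⬝ᵥ t = 1 := by
    obtain ⟨k, hk⟩ := Function.ne_iff.mp hf0
    refine ⟨Pi.single k (f k)⁻¹, ?_⟩
    rw [dotProduct_single]
    exact mul_inv_cancel₀ hk
  obtain ⟨w, hw⟩ : ∃ w : Fin 3 → K, w ⬝ᵥ r = 1 := by
    obtain ⟨k, hk⟩ := Function.ne_iff.mp hr0
    refine ⟨Pi.single k (r k)⁻¹, ?_⟩
    rw [single_dotProduct]
    exact inv_mul_cancel₀ hk
  set s : Fin 3 → K := f ⨯₃ w with hs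
  let g : Matrix (Fin 3) (Fin 3) K := (Matrix.of ![r, s, t])ᵀ
  have hdet : g.det = 1 := by
    rw [Matrix.det_transpose]
    show Matrix.det ![r, s, t] = 1
    rw [← triple_product_eq_det, triple_product_permutation, hs, cross_dot_cross, ht, hw, hfr]
    simp
  have hu : IsUnit g.det := by
    rw [hdet]
    exact isUnit_one
  have hge : g *ᵥ Pi.single 0 1 = r := by
    rw [Matrix.mulVec_single_one]
    rfl
  have hfg : f ᵥ* g = Pi.single 2 1 := by
    funext j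
    have e : (f ᵥ* g) j = f ⬝ᵥ (![r, s, t] j) := rfl
    rw [e]
    fin_cases j
    · simpa using hfr
    · simp [hs]
    · simpa using ht
  refine ⟨g, g⁻¹, Matrix.nonsing_inv_mul g hu, Matrix.mul_nonsing_inv g hu, ?_⟩
  intro x hx h1 h2
  obtain ⟨c, hc⟩ := inv x hx h1 h2
  obtain ⟨d, hd⟩ := rowinv x hx h1 h2
  have hcol : (g⁻¹ * (x : Matrix (Fin 3) (Fin 3) K) * g) *ᵥ Pi.single 0 1
      = c • Pi.single 0 1 := by
    rw [← Matrix.mulVec_mulVec, ← Matrix.mulVec_mulVec, hge, hc, Matrix.mulVec_smul]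
    congr 1
    rw [← hge, Matrix.mulVec_mulVec, Matrix.nonsing_inv_mul g hu, Matrix.one_mulVec]
  have hrow : Pi.single 2 1 ᵥ* (g⁻¹ * (x : Matrix (Fin 3) (Fin 3) K) * g)
      = d • Pi.single 2 1 := by
    rw [← Matrix.vecMul_vecMul, ← Matrix.vecMul_vecMul, ← hfg, Matrix.vecMul_vecMul f,
      Matrix.mul_nonsing_inv g hu, Matrix.vecMul_one, hd, Matrix.smul_vecMul]
  rw [Matrix.mulVec_single_one] at hcol
  rw [Matrix.single_one_vecMul] at hrow
  refine ⟨?_, ?_, ?_⟩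
  · have := congrFun hcol 1
    simpa using this
  · have := congrFun hcol 2
    simpa using this
  · have := congrFun hrow 1
    simpa using this

/-- Commutators in the normaliser of a nontrivial `p`-subgroup of `SU₃` have order dividing `p`. -/
theorem comm_pow_eq_one {p : ℕ} [Fact p.Prime] [Fintype K] [CharP K p] (hp : p ≠ 2) (n : ℕ)
    (P : Subgroup (Matrix.SpecialLinearGroup (Fin 3) K)) (hP : IsPGroup p P) (hP1 : ∃ g ∈ P, g ≠ 1)
    (hPSU : P ≤ Cfsg.SU 3 K (p ^ n)) (x y : Matrix.SpecialLinearGroup (Fin 3) K)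
    (hx : x ∈ Cfsg.SU 3 K (p ^ n)) (hy : y ∈ Cfsg.SU 3 K (p ^ n))
    (hx1 : ∀ a ∈ P, x * a * x⁻¹ ∈ P) (hx2 : ∀ a ∈ P, x⁻¹ * a * x ∈ P)
    (hy1 : ∀ a ∈ P, y * a * y⁻¹ ∈ P) (hy2 : ∀ a ∈ P, y⁻¹ * a * y ∈ P) :
    (x * y * x⁻¹ * y⁻¹) ^ p = 1 := by
  obtain ⟨g, g', hg'g, hgg', tri⟩ := exists_triangularize n P hP hP1 hPSU
  have hA := tri x hx hx1 hx2
  have hB := tri y hy hy1 hy2
  have hA' := tri x⁻¹ (inv_mem hx) (fun a ha => by simpa using hx2 a ha)
    (fun a ha => by simpa using hx1 a ha)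
  have hB' := tri y⁻¹ (inv_mem hy) (fun a ha => by simpa using hy2 a ha)
    (fun a ha => by simpa using hy1 a ha)
  have conj_mul : ∀ a b : Matrix (Fin 3) (Fin 3) K,
      g' * a * g * (g' * b * g) = g' * (a * b) * g := by
    intro a b
    calc g' * a * g * (g' * b * g) = g' * a * (g * g') * b * g := by simp only [mul_assoc]
      _ = g' * (a * b) * g := by rw [hgg', mul_one, mul_assoc g' a b]
  have hAA : g' * (x : Matrix (Fin 3) (Fin 3) K) * g *
      (g' * ((x⁻¹ : Matrix.SpecialLinearGroup (Fin 3) K) : Matrix (Fin 3) (Fin 3) K) * g) = 1 := by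
    rw [conj_mul, coe_mul_eq (mul_inv_cancel x), Matrix.SpecialLinearGroup.coe_one,
      mul_one, hg'g]
  have hBB : g' * (y : Matrix (Fin 3) (Fin 3) K) * g *
      (g' * ((y⁻¹ : Matrix.SpecialLinearGroup (Fin 3) K) : Matrix (Fin 3) (Fin 3) K) * g) = 1 := by
    rw [conj_mul, coe_mul_eq (mul_inv_cancel y), Matrix.SpecialLinearGroup.coe_one,
      mul_one, hg'g]
  have key := UT3.comm_pow_eq_one hp hA hB hA' hB' hAA hBB
  rw [conj_mul, conj_mul, conj_mul] at key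
  let u : (Matrix (Fin 3) (Fin 3) K)ˣ := ⟨g', g, hg'g, hgg'⟩
  have h5 : ∀ M : Matrix (Fin 3) (Fin 3) K, (g' * M * g) ^ p = g' * M ^ p * g :=
    fun M => Units.conj_pow u M p
  rw [h5] at key
  apply Subtype.ext
  rw [Matrix.SpecialLinearGroup.coe_pow]
  simp only [Matrix.SpecialLinearGroup.coe_mul]
  set M : Matrix (Fin 3) (Fin 3) K := (x : Matrix (Fin 3) (Fin 3) K) *
    (y : Matrix (Fin 3) (Fin 3) K) *
    ((x⁻¹ : Matrix.SpecialLinearGroup (Fin 3) K) : Matrix (Fin 3) (Fin 3) K) *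
    ((y⁻¹ : Matrix.SpecialLinearGroup (Fin 3) K) : Matrix (Fin 3) (Fin 3) K) with hM
  calc M ^ p = g * g' * M ^ p * (g * g') := by rw [hgg', one_mul, mul_one]
    _ = g * (g' * M ^ p * g) * g' := by simp only [mul_assoc]
    _ = 1 := by rw [key, mul_one, hgg']
    _ = ((1 : Matrix.SpecialLinearGroup (Fin 3) K) : Matrix (Fin 3) (Fin 3) K) := by simp

end Cfsg.Agent.Lib.Helper37.UnitaryFlag
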